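import Cfsg.Agent.H935.J4Max.ListCl

/-!
# A fast kernel check that a list of natural numbers has no duplicates (helper793)

`ndF n L` : the list is divided `n` times by the bits of the remainders modulo 65521, then `ndB`.
-/

set_option autoImplicit false

namespace Cfsg.Agent.H793.MS

open Cfsg.Agent.H935.J4Max.ListCl (ndB nodup_of_ndB)

theorem nodup_of_filter {α : Type*} [DecidableEq α] (p : α → Bool) {L : List α} (h1 : (L.filter p).Nodup)
    (h2 : (L.filter fun a => !p a).Nodup) : L.Nodup := by
  rw [List.nodup_iff_count_le_one]
  intro a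
  rcases hp : p a with _ | _
  · have h := List.nodup_iff_count_le_one.1 h2 a
    rwa [List.count_filter (by simp [hp])] at h
  · have h := List.nodup_iff_count_le_one.1 h1 a
    rwa [List.count_filter hp] at h

/-- the bit used for dividing the list -/
def bt (i a : ℕ) : Bool := Nat.testBit (Nat.mod a 65521) i

/-- division of a list -/
noncomputable def part (i : ℕ) (L : List ℕ) : List ℕ → List ℕ → (List ℕ → List ℕ → Bool) → Bool :=
  List.rec (motive := fun _ => List ℕ → List ℕ → (List ℕ → List ℕ → Bool) → Bool) (fun l0 l1 k => k l0 l1)
    (fun a _ ih l0 l1 k => cond (bt i a) (ih l0 (a :: l1) k) (ih (a :: l0) l1 k)) L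

theorem part_spec (i : ℕ) (L : List ℕ) : ∀ (l0 l1 : List ℕ) (k : List ℕ → List ℕ → Bool),
    part i L l0 l1 k = k ((L.filter fun a => !bt i a).reverse ++ l0) ((L.filter fun a => bt i a).reverse ++ l1) := by
  induction L with
  | nil => intro l0 l1 k; rfl
  | cons a L ih =>
    intro l0 l1 k
    have e : part i (a :: L) l0 l1 k = cond (bt i a) (part i L l0 (a :: l1) k) (part i L (a :: l0) l1 k) := rfl
    rw [e]
    rcases h : bt i a with _ | _
    · rw [cond_false, ih, List.filter_cons_of_pos (by simp [h]), List.filter_cons_of_neg (by simp [h]),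
        List.reverse_cons, List.append_assoc]
      rfl
    · rw [cond_true, ih, List.filter_cons_of_neg (by simp [h]), List.filter_cons_of_pos (by simp [h]),
        List.reverse_cons, List.append_assoc]
      rfl

/-- the check -/
noncomputable def ndF (n : ℕ) : List ℕ → Bool :=
  Nat.rec (motive := fun _ => List ℕ → Bool) ndB
    (fun i ih L => part i L [] [] fun l0 l1 => cond (ih l0) (ih l1) false) n

theorem nodup_of_ndF (n : ℕ) : ∀ {L : List ℕ}, ndF n L = true → L.Nodup := by
  induction n with
  | zero => exact fun h => nodup_of_ndB h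
  | succ n ih =>
    intro L h
    have h1 : part n L [] [] (fun l0 l1 => cond (ndF n l0) (ndF n l1) false) = true := h
    rw [part_spec] at h1
    rcases h2 : ndF n ((L.filter fun a => !bt n a).reverse ++ []) with _ | _
    · rw [h2] at h1
      exact absurd h1 Bool.false_ne_true
    · rw [h2, cond_true] at h1
      have h3 := ih h2
      have h4 := ih h1
      rw [List.append_nil, List.nodup_reverse] at h3 h4
      exact nodup_of_filter (bt n) h4 h3

end Cfsg.Agent.H793.MS
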